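import Cfsg.Agent.H527.RC.Defs
import Cfsg.Agent.H578.PermCol

/-!
# S4191, COL3 and COL2: rigid colourings of primitive solvable permutation groups

* `c4aff` : four colours for all affine bijections of an abelian group of odd order;
* `c3aff` : three colours for all affine bijections of odd order of an abelian group;
* `exists_aff` : a primitive solvable group is a group of affine maps;
* `col_three : Col 3 3`, `col_two : Col 2 4`.
-/

set_option autoImplicit false

namespace Cfsg.Agent.H502.RC

open MulAction
open Cfsg.Agent.H578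
open Cfsg.Agent.H578.Comb
open Cfsg.Agent.H527.RC
open Cfsg.Agent.SolvableStructure.MinimalNormal
open Cfsg.Agent.SolvableStructure.PrimitiveSolvable

universe u w

/-! ### combinatorics -/

theorem swapless {X : Type*} {F : X → X} {m : ℕ} (hm : Odd m) (h : ∀ x, F^[m] x = x) {x y : X}
    (hxy : F x = y) (hyx : F y = x) : y = x := by
  obtain ⟨j, hj⟩ := hm
  have h1 : ∀ j : ℕ, F^[2 * j] x = x := by
    intro j
    induction j with
    | zero => rfl
    | succ j ih => rw [show 2 * (j + 1) = 2 * j + 1 + 1 by ring, Function.iterate_succ_apply,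
        Function.iterate_succ_apply, hxy, hyx, ih]
  have h2 := h x
  have h3 : F^[2 * j + 1] x = F (F^[2 * j] x) := Function.iterate_succ_apply' F (2 * j) x
  rw [hj, h3, h1] at h2
  rw [← hxy, h2]

/-- three colours for four points -/
theorem c3_four (X : Type*) (hX : Nat.card X = 4) : ∃ κ : X → Fin 3, ∀ F : X → X, Function.Injective F →
    (∀ x, κ (F x) = κ x) → (∃ m, Odd m ∧ ∀ x, F^[m] x = x) → ∀ x, F x = x := by
  have hfin : Finite X := Nat.finite_of_card_ne_zero (by omega)
  let e : X ≃ Fin 4 := Finite.equivFinOfCardEq hX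
  refine ⟨fun x => ![0, 1, 2, 2] (e x), fun F hF hκ ⟨m, hm, hm'⟩ => ?_⟩
  have h0 : ∀ i : Fin 4, ![(0 : Fin 3), 1, 2, 2] (e (F (e.symm i))) = ![(0 : Fin 3), 1, 2, 2] i := by
    intro i
    have := hκ (e.symm i)
    simpa using this
  let G : Fin 4 → Fin 4 := fun i => e (F (e.symm i))
  have hG : ∀ i, ![(0 : Fin 3), 1, 2, 2] (G i) = ![(0 : Fin 3), 1, 2, 2] i := h0
  have hGi : Function.Injective G := fun i j hij => by
    have := hF (e.injective hij)
    exact e.symm.injective this
  have hsw : ∀ i j, G i = j → G j = i → j = i := by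
    intro i j hij hji
    have h1 : F (e.symm i) = e.symm j := by rw [← hij]; simp [G]
    have h2 : F (e.symm j) = e.symm i := by rw [← hji]; simp [G]
    exact e.symm.injective (swapless hm hm' h1 h2)
  have key : ∀ i, G i = i := by
    generalize G = G' at hG hGi hsw
    have g0 : G' 0 = 0 := by
      have := hG 0
      revert this
      generalize G' 0 = a
      revert a
      decide
    have g1 : G' 1 = 1 := by
      have := hG 1
      revert this
      generalize G' 1 = a
      revert a
      decide
    have g2 : G' 2 = 2 ∨ G' 2 = 3 := by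
      have := hG 2
      revert this
      generalize G' 2 = a
      revert a
      decide
    have g3 : G' 3 = 2 ∨ G' 3 = 3 := by
      have := hG 3
      revert this
      generalize G' 3 = a
      revert a
      decide
    have g2' : G' 2 = 2 := by
      rcases g2 with h | h
      · exact h
      · rcases g3 with h' | h'
        · have := hsw 2 3 h h'
          exact absurd this (by decide)
        · exact absurd (hGi (h.trans h'.symm)) (by decide)
    have g3' : G' 3 = 3 := by
      rcases g3 with h | h
      · exact absurd (hGi (g2'.trans h.symm)) (by decide)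
      · exact h
    intro i
    fin_cases i
    · exact g0
    · exact g1
    · exact g2'
    · exact g3'
  intro x
  have := key (e x)
  simp only [G, Equiv.symm_apply_apply] at this
  exact e.injective this

section Ind

variable {X : Type*} [AddCommGroup X] {N : ℕ} {n : Fin N → ℕ}
  (e : X ≃+ ((i : Fin N) → ZMod (n i)))

theorem b_inj (hn : ∀ i, 1 < n i) {i j : Fin N} (h : ind e {i} = ind e {j}) : i = j := by
  have := ind_inj e hn h
  simpa using this

theorem b_ne (hn : ∀ i, 1 < n i) {i : Fin N} : ind e {i} ≠ 0 := by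
  intro h
  rw [← ind_empty e] at h
  have := ind_inj e hn h
  simp at this

theorem pair_ne_b (hn : ∀ i, 1 < n i) {i j k : Fin N} (hij : i ≠ j) : ind e {i, j} ≠ ind e {k} := by
  intro h
  have h1 := ind_inj e hn h
  have h2 : i ∈ ({k} : Finset (Fin N)) := by rw [← h1]; simp
  have h3 : j ∈ ({k} : Finset (Fin N)) := by rw [← h1]; simp
  rw [Finset.mem_singleton] at h2 h3
  exact hij (h2.trans h3.symm)

theorem pair_ne_zero (hn : ∀ i, 1 < n i) {i j : Fin N} : ind e {i, j} ≠ 0 := by
  intro h
  rw [← ind_empty e] at h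
  have := ind_inj e hn h
  simp at this

/-- `b a + b c = (b j + b l) + b k`, `a, c, k` distinct: impossible -/
theorem claimA (hn : ∀ i, 1 < n i) {a c k j l : Fin N} (hac : a ≠ c) (hak : a ≠ k) (hck : c ≠ k)
    (h : ind e {a} + ind e {c} = ind e {j, l} + ind e {k}) : False := by
  have hco : ∀ i : Fin N, ((if i = a then 1 else 0) + (if i = c then 1 else 0) : ZMod (n i)) =
      (if i = j ∨ i = l then 1 else 0) + (if i = k then 1 else 0) := by
    intro i
    have h1 : e (ind e {a} + ind e {c}) i = e (ind e {j, l} + ind e {k}) i := by rw [h]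
    rw [map_add, map_add, Pi.add_apply, Pi.add_apply, ind_apply, ind_apply, ind_apply, ind_apply] at h1
    simpa using h1
  have hf : ∀ i : Fin N, (1 : ZMod (n i)) ≠ 0 := fun i => by
    have : Fact (1 < n i) := ⟨hn i⟩
    exact one_ne_zero
  have hk := hco k
  rw [if_neg (Ne.symm hak), if_neg (Ne.symm hck), if_pos rfl] at hk
  have ha := hco a
  rw [if_pos rfl, if_neg hac, if_neg hak] at ha
  have hc := hco c
  rw [if_pos rfl, if_neg (Ne.symm hac), if_neg hck] at hc
  have hk' : k = j ∨ k = l := by
    by_contra hcon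
    rw [if_neg hcon] at hk
    exact hf k (by simpa using hk.symm)
  have ha' : a = j ∨ a = l := by
    by_contra hcon
    rw [if_neg hcon] at ha
    exact hf a (by simpa using ha)
  have hc' : c = j ∨ c = l := by
    by_contra hcon
    rw [if_neg hcon] at hc
    exact hf c (by simpa using hc)
  rcases hk' with rfl | rfl <;> rcases ha' with rfl | rfl <;> rcases hc' with rfl | rfl <;> tauto

/-- `b a = (b j + b l) + b k`, `a ≠ k`: then `{a, k} = {j, l}` -/
theorem claimB (hn : ∀ i, 1 < n i) {a k j l : Fin N} (hak : a ≠ k)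
    (h : ind e {a} = ind e {j, l} + ind e {k}) : (k = j ∨ k = l) ∧ (a = j ∨ a = l) := by
  have hco : ∀ i : Fin N, (if i = a then 1 else 0 : ZMod (n i)) =
      (if i = j ∨ i = l then 1 else 0) + (if i = k then 1 else 0) := by
    intro i
    have h1 : e (ind e {a}) i = e (ind e {j, l} + ind e {k}) i := by rw [h]
    rw [map_add, Pi.add_apply, ind_apply, ind_apply, ind_apply] at h1
    simpa using h1
  have hf : ∀ i : Fin N, (1 : ZMod (n i)) ≠ 0 := fun i => by
    have : Fact (1 < n i) := ⟨hn i⟩
    exact one_ne_zero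
  have hk := hco k
  rw [if_neg (Ne.symm hak), if_pos rfl] at hk
  have ha := hco a
  rw [if_pos rfl, if_neg hak] at ha
  constructor
  · by_contra hcon
    rw [if_neg hcon] at hk
    exact hf k (by simpa using hk.symm)
  · by_contra hcon
    rw [if_neg hcon] at ha
    exact hf a (by simpa using ha)

end Ind

open Classical in
/-- three colours -/
noncomputable def k3 {X : Type*} (P0 P1 : X → Prop) (x : X) : Fin 3 := if P0 x then 0 else if P1 x then 1 else 2

open Classical in
/-- four colours -/
noncomputable def k4 {X : Type*} (P0 P1 P2 : X → Prop) (x : X) : Fin 4 :=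
  if P0 x then 0 else if P1 x then 1 else if P2 x then 2 else 3

theorem pres3 {X : Type*} {P0 P1 : X → Prop} {F : X → X} (h : ∀ x, k3 P0 P1 (F x) = k3 P0 P1 x) :
    (∀ x, P0 x → P0 (F x)) ∧ (∀ x, ¬ P0 x → P1 x → P1 (F x)) := by
  unfold k3 at h
  refine ⟨fun x hx => ?_, fun x hx hx1 => ?_⟩
  · have h1 := h x
    rw [if_pos hx] at h1
    by_contra h2
    rw [if_neg h2] at h1
    split_ifs at h1 <;> exact absurd h1 (by decide)
  · have h1 := h x
    rw [if_neg hx, if_pos hx1] at h1
    by_contra h2
    rw [if_neg h2] at h1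
    split_ifs at h1 <;> exact absurd h1 (by decide)

theorem pres4 {X : Type*} {P0 P1 P2 : X → Prop} {F : X → X} (h : ∀ x, k4 P0 P1 P2 (F x) = k4 P0 P1 P2 x) :
    (∀ x, P0 x → P0 (F x)) ∧ (∀ x, ¬ P0 x → P1 x → P1 (F x)) ∧ (∀ x, ¬ P0 x → ¬ P1 x → P2 x → P2 (F x)) := by
  unfold k4 at h
  refine ⟨fun x hx => ?_, fun x hx hx1 => ?_, fun x hx hx1 hx2 => ?_⟩
  · have h1 := h x
    rw [if_pos hx] at h1
    by_contra h2
    rw [if_neg h2] at h1
    split_ifs at h1 <;> exact absurd h1 (by decide)
  · have h1 := h x
    rw [if_neg hx, if_pos hx1] at h1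
    by_contra h2
    rw [if_neg h2] at h1
    split_ifs at h1 <;> exact absurd h1 (by decide)
  · have h1 := h x
    rw [if_neg hx, if_neg hx1, if_pos hx2] at h1
    by_contra h2
    rw [if_neg h2] at h1
    split_ifs at h1 <;> exact absurd h1 (by decide)

/-- **four colours for the affine bijections of an abelian group of odd order** -/
theorem c4aff (X : Type*) [AddCommGroup X] [Finite X] (hX : Odd (Nat.card X)) :
    ∃ κ : X → Fin 4, ∀ (T : X →+ X) (t : X), Function.Injective T → (∀ x, κ (T x + t) = κ x) →
      t = 0 ∧ ∀ x, T x = x := by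
  classical
  obtain ⟨N, n, hn, ⟨e⟩⟩ := exists_coord X
  have hcard : Nat.card X = ∏ i, n i := by
    rw [Nat.card_congr e.toEquiv, Nat.card_pi]
    simp
  have hodd : ∀ i, Odd (n i) := by
    intro i
    rw [hcard, Finset.prod_eq_mul_prod_sdiff_singleton_of_mem (Finset.mem_univ i)] at hX
    exact (Nat.odd_mul.1 hX).1
  by_cases hN : N ≤ 1
  · -- at most one coordinate
    refine ⟨k4 (fun x => x = 0) (fun x => ∃ i, x = ind e {i}) (fun _ => False), fun T t hT hκ => ?_⟩
    obtain ⟨h0, h1, -⟩ := pres4 (F := fun x => T x + t) hκ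
    have ht : t = 0 := by simpa using h0 0 rfl
    subst ht
    refine ⟨rfl, eq_id_of_fix e hn T fun i => ?_⟩
    obtain ⟨j, hj⟩ := h1 _ (b_ne e hn) ⟨i, rfl⟩
    have : j = i := Fin.ext (by omega)
    rw [this] at hj
    simpa using hj
  · push Not at hN
    let o : Fin N := ⟨0, by omega⟩
    let i1 : Fin N := ⟨1, by omega⟩
    have ho : ∀ i : Fin N, i.val = 0 ↔ i = o := fun i => by rw [Fin.ext_iff]
    refine ⟨k4 (fun x => x = 0 ∨ x = ind e {o}) (fun x => ∃ i, i ≠ o ∧ x = ind e {i})
      (fun x => ∃ i j : Fin N, j.val = i.val + 1 ∧ x = ind e {i, j}), fun T t hT hκ => ?_⟩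
    obtain ⟨h0, h1, h2⟩ := pres4 (F := fun x => T x + t) hκ
    have h1' : ∀ i, i ≠ o → ∃ k, k ≠ o ∧ T (ind e {i}) + t = ind e {k} := by
      intro i hi
      refine h1 _ ?_ ⟨i, hi, rfl⟩
      rintro (h | h)
      · exact b_ne e hn h
      · exact hi (b_inj e hn h)
    have h2' : ∀ i j : Fin N, j.val = i.val + 1 → ∃ k l : Fin N, l.val = k.val + 1 ∧
        T (ind e {i, j}) + t = ind e {k, l} := by
      intro i j hij
      have hne : i ≠ j := by
        rintro rfl
        omega
      refine h2 _ ?_ ?_ ⟨i, j, hij, rfl⟩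
      · rintro (h | h)
        · exact pair_ne_zero e hn h
        · exact pair_ne_b e hn hne h
      · rintro ⟨k, -, h⟩
        exact pair_ne_b e hn hne h
    have hoi : o ≠ i1 := by
      intro h
      have := congrArg Fin.val h
      simp [o, i1] at this
    have ht : t = 0 := by
      have h3 := h0 0 (Or.inl rfl)
      simp only [map_zero, zero_add] at h3
      rcases h3 with h3 | h3
      · exact h3
      exfalso
      have h4 : T (ind e {o}) + t = 0 := by
        rcases h0 (ind e {o}) (Or.inr rfl) with h4 | h4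
        · exact h4
        · exfalso
          rw [h3] at h4
          have h5 : T (ind e {o}) = T 0 := by
            rw [map_zero]
            simpa using h4
          exact b_ne e hn (hT h5)
      obtain ⟨k, hko, hk⟩ := h1' i1 (Ne.symm hoi)
      obtain ⟨c, d, hcd, h5⟩ := h2' o i1 rfl
      rw [← ind_pair e hoi, map_add] at h5
      have h6 : ind e {k} = ind e {c, d} + ind e {o} := by
        have h7 : T (ind e {o}) = -t := eq_neg_of_add_eq_zero_left h4
        rw [← h5, ← hk, h7, ← h3]
        abel
      have h7 := congrArg (fun z => e z o) h6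
      simp only [map_add, Pi.add_apply, ind_apply] at h7
      rw [if_neg (by simpa using Ne.symm hko), if_pos (Finset.mem_singleton_self o)] at h7
      have hf : Fact (1 < n o) := ⟨hn o⟩
      have h8 : (1 : ZMod (n o)) ≠ 0 := one_ne_zero
      by_cases h9 : o ∈ ({c, d} : Finset (Fin N))
      · rw [if_pos h9] at h7
        have h10 : ((2 : ℕ) : ZMod (n o)) = 0 := by
          push_cast
          rw [h7]
          norm_num
        rw [ZMod.natCast_eq_zero_iff] at h10
        have h11 := Nat.le_of_dvd (by norm_num) h10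
        have h12 := hn o
        have h13 : n o = 2 := by omega
        have h14 := hodd o
        rw [h13] at h14
        exact absurd h14 (by decide)
      · rw [if_neg h9, zero_add] at h7
        exact h8 h7.symm
    subst ht
    refine ⟨rfl, eq_id_of_fix e hn T ?_⟩
    have hTo : T (ind e {o}) = ind e {o} := by
      rcases h0 (ind e {o}) (Or.inr rfl) with h4 | h4
      · exfalso
        have h5 : T (ind e {o}) = T 0 := by
          rw [map_zero]
          simpa using h4
        exact b_ne e hn (hT h5)
      · simpa using h4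
    have key : ∀ m : ℕ, ∀ i : Fin N, i.val ≤ m → T (ind e {i}) = ind e {i} := by
      intro m
      induction m with
      | zero =>
        intro i hi
        have : i = o := (ho i).1 (by omega)
        rw [this, hTo]
      | succ m ih =>
        intro i hi
        by_cases him : i.val ≤ m
        · exact ih i him
        · have hi' : i.val = m + 1 := by omega
          let j : Fin N := ⟨m, by omega⟩
          have hji : i.val = j.val + 1 := hi'
          have hne : j ≠ i := by
            intro h
            rw [← h] at hji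
            omega
          have hj := ih j le_rfl
          obtain ⟨k, hko, hk⟩ := h1' i (by
            intro h
            rw [h] at hi'
            exact absurd hi' (by simp [o]))
          obtain ⟨c, d, hcd, h5⟩ := h2' j i hji
          rw [add_zero] at hk
          rw [← ind_pair e hne, map_add, hj, hk, add_zero] at h5
          have hjk : j ≠ k := by
            rintro rfl
            exact hne (b_inj e hn (hT (by rw [hj, hk])))
          rw [ind_pair e hjk] at h5
          have h6 := ind_inj e hn h5
          have hj6 : j ∈ ({c, d} : Finset (Fin N)) := by rw [← h6]; simp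
          have hk6 : k ∈ ({c, d} : Finset (Fin N)) := by rw [← h6]; simp
          simp only [Finset.mem_insert, Finset.mem_singleton] at hj6 hk6
          have hcase : k.val = j.val + 1 ∨ j.val = k.val + 1 := by
            rcases hj6 with rfl | rfl <;> rcases hk6 with rfl | rfl
            · exact absurd rfl hjk
            · exact Or.inl hcd
            · exact Or.inr hcd
            · exact absurd rfl hjk
          rcases hcase with h7 | h7
          · have : k = i := Fin.ext (by omega)
            rw [hk, this]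
          · exfalso
            have h8 := ih k (by
              have : j.val = m := rfl
              omega)
            have h9 : k = i := b_inj e hn (hT (by rw [h8, hk]))
            rw [h9] at h7
            omega
    intro i
    exact key i.val i le_rfl

/-- the pair argument for `c3aff` -/
theorem pairs {X : Type*} [AddCommGroup X] {N : ℕ} {n : Fin N → ℕ} (e : X ≃+ ((i : Fin N) → ZMod (n i)))
    (hn : ∀ i, 1 < n i) (T : X →+ X) (t : X) (hT : Function.Injective T) {k : Fin N} (ht : t = ind e {k})
    (h0 : ∀ i, T (ind e {i}) + t = 0 ∨ ∃ j, T (ind e {i}) + t = ind e {j})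
    (h1 : ∀ i j : Fin N, j.val = i.val + 1 → ∃ c d : Fin N, d.val = c.val + 1 ∧
      T (ind e {i, j}) + t = ind e {c, d}) {i j : Fin N} (hij : j.val = i.val + 1) :
    (T (ind e {i}) + t = 0 ∧ ∃ a, T (ind e {j}) + t = ind e {a} ∧ a ≠ k ∧ (a.val = k.val + 1 ∨ k.val = a.val + 1)) ∨
    (T (ind e {j}) + t = 0 ∧ ∃ a, T (ind e {i}) + t = ind e {a} ∧ a ≠ k ∧ (a.val = k.val + 1 ∨ k.val = a.val + 1)) := by
  have hne : i ≠ j := by
    rintro rfl
    omega
  have hk : ∀ i a, T (ind e {i}) + t = ind e {a} → a ≠ k := by
    rintro i a h rfl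
    rw [ht] at h
    have h5 : T (ind e {i}) = T 0 := by
      rw [map_zero]
      simpa using h
    exact b_ne e hn (hT h5)
  obtain ⟨c, d, hcd, h2⟩ := h1 i j hij
  have h3 : ∀ u v : X, T (ind e {i}) + t = u → T (ind e {j}) + t = v → u + v = ind e {c, d} + ind e {k} := by
    intro u v hu hv
    rw [← h2, ← hu, ← hv, ← ind_pair e hne, map_add, ← ht]
    abel
  have hadj : ∀ a, a ≠ k → ind e {a} = ind e {c, d} + ind e {k} → (a.val = k.val + 1 ∨ k.val = a.val + 1) := by
    intro a hak h
    obtain ⟨h4, h5⟩ := claimB e hn hak h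
    rcases h4 with rfl | rfl <;> rcases h5 with rfl | rfl
    · exact absurd rfl hak
    · exact Or.inl hcd
    · exact Or.inr hcd
    · exact absurd rfl hak
  rcases h0 i with h4 | ⟨a, h4⟩
  · rcases h0 j with h5 | ⟨c', h5⟩
    · exfalso
      have h6 : T (ind e {i}) = T (ind e {j}) := add_right_cancel (h4.trans h5.symm)
      exact hne (b_inj e hn (hT h6))
    · refine Or.inl ⟨h4, c', h5, hk j c' h5, hadj c' (hk j c' h5) ?_⟩
      have := h3 _ _ h4 h5
      rwa [zero_add] at this
  · rcases h0 j with h5 | ⟨c', h5⟩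
    · refine Or.inr ⟨h5, a, h4, hk i a h4, hadj a (hk i a h4) ?_⟩
      have := h3 _ _ h4 h5
      rwa [add_zero] at this
    · exfalso
      have hac : a ≠ c' := by
        rintro rfl
        have h6 : T (ind e {i}) = T (ind e {j}) := add_right_cancel (h4.trans h5.symm)
        exact hne (b_inj e hn (hT h6))
      exact claimA e hn hac (hk i a h4) (hk j c' h5) (h3 _ _ h4 h5)

/-- **three colours for the affine bijections of odd order of a finite abelian group** -/
theorem c3aff (X : Type*) [AddCommGroup X] [Finite X] :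
    ∃ κ : X → Fin 3, ∀ (T : X →+ X) (t : X), Function.Injective T → (∀ x, κ (T x + t) = κ x) →
      (∃ m, Odd m ∧ ∀ x, (fun x => T x + t)^[m] x = x) → t = 0 ∧ ∀ x, T x = x := by
  classical
  obtain ⟨N, n, hn, ⟨e⟩⟩ := exists_coord X
  have hcard : Nat.card X = ∏ i, n i := by
    rw [Nat.card_congr e.toEquiv, Nat.card_pi]
    simp
  by_cases h22 : N = 2 ∧ ∀ i, n i = 2
  · -- four points
    have h4 : Nat.card X = 4 := by
      rw [hcard, Finset.prod_congr rfl fun i _ => h22.2 i, Finset.prod_const, Finset.card_univ, Fintype.card_fin,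
        h22.1]
      norm_num
    obtain ⟨κ, hκ⟩ := c3_four X h4
    refine ⟨κ, fun T t hT hk ho => ?_⟩
    have h5 := hκ (fun x => T x + t) (fun x y hxy => hT (add_right_cancel hxy)) hk ho
    have ht : t = 0 := by simpa using h5 0
    subst ht
    exact ⟨rfl, fun x => by simpa using h5 x⟩
  refine ⟨k3 (fun x => x = 0 ∨ ∃ i, x = ind e {i})
    (fun x => ∃ i j : Fin N, j.val = i.val + 1 ∧ x = ind e {i, j}), fun T t hT hκ ⟨m, hm, hm'⟩ => ?_⟩
  obtain ⟨h0, h1⟩ := pres3 (F := fun x => T x + t) hκ
  have h0' : ∀ i, T (ind e {i}) + t = 0 ∨ ∃ j, T (ind e {i}) + t = ind e {j} := fun i =>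
    h0 _ (Or.inr ⟨i, rfl⟩)
  have h1' : ∀ i j : Fin N, j.val = i.val + 1 → ∃ k l : Fin N, l.val = k.val + 1 ∧
      T (ind e {i, j}) + t = ind e {k, l} := by
    intro i j hij
    have hne : i ≠ j := by
      rintro rfl
      omega
    refine h1 _ ?_ ⟨i, j, hij, rfl⟩
    rintro (h | ⟨k, h⟩)
    · exact pair_ne_zero e hn h
    · exact pair_ne_b e hn hne h
  have hinj : ∀ i j, T (ind e {i}) + t = T (ind e {j}) + t → i = j := by
    intro i j h
    exact b_inj e hn (hT (add_right_cancel h))
  have ht : t = 0 := by
    have h3 := h0 0 (Or.inl rfl)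
    simp only [map_zero, zero_add] at h3
    rcases h3 with h3 | ⟨k, h3⟩
    · exact h3
    exfalso
    have hsw : T (ind e {k}) + t ≠ 0 := by
      intro h
      have h4 : (fun x => T x + t) 0 = ind e {k} := by simp [h3]
      have h5 : (fun x => T x + t) (ind e {k}) = 0 := h
      exact b_ne e hn (swapless hm hm' h4 h5)
    have hpr := fun (i j : Fin N) (hij : j.val = i.val + 1) => pairs e hn T t hT h3 h0' h1' hij
    have hkN := k.isLt
    have hN : N = 1 ∨ N = 2 ∨ N = 3 ∨ 4 ≤ N := by omega
    rcases hN with hN | hN | hN | hN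
    · -- `N = 1`
      subst hN
      rcases h0' k with h4 | ⟨j, h4⟩
      · exact hsw h4
      · have : j = k := Fin.ext (by omega)
        rw [this, h3] at h4
        have h5 : T (ind e {k}) = T 0 := by
          rw [map_zero]
          simpa using h4
        exact b_ne e hn (hT h5)
    · -- `N = 2`
      subst hN
      -- the other index
      obtain ⟨a, hak, hall⟩ : ∃ a : Fin 2, a ≠ k ∧ ∀ i : Fin 2, i = a ∨ i = k := by
        have h2 : ∀ k : Fin 2, ∃ a : Fin 2, a ≠ k ∧ ∀ i : Fin 2, i = a ∨ i = k := by decide
        exact h2 k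
      have hka : T (ind e {a}) + t = 0 ∧ T (ind e {k}) + t = ind e {a} := by
        have h6 : ∀ c : Fin 2, c ≠ k → c = a := fun c hc => (hall c).resolve_right hc
        rcases hpr 0 1 rfl with ⟨h4, c, h5, hck, -⟩ | ⟨h4, c, h5, hck, -⟩
        · rcases hall 0 with h7 | h7
          · rw [h7] at h4
            have h8 : (1 : Fin 2) = k := by
              rcases hall 1 with h8 | h8
              · rw [← h7] at h8
                exact absurd h8 (by decide)
              · exact h8
            rw [h8, h6 c hck] at h5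
            exact ⟨h4, h5⟩
          · rw [h7] at h4
            exact absurd h4 hsw
        · rcases hall 1 with h7 | h7
          · rw [h7] at h4
            have h8 : (0 : Fin 2) = k := by
              rcases hall 0 with h8 | h8
              · rw [← h7] at h8
                exact absurd h8 (by decide)
              · exact h8
            rw [h8, h6 c hck] at h5
            exact ⟨h4, h5⟩
          · rw [h7] at h4
            exact absurd h4 hsw
      obtain ⟨hTa, hTk⟩ := hka
      have hsum : T (ind e {a} + ind e {k}) + t = ind e {a} + ind e {k} := by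
        obtain ⟨c, d, hcd, h5⟩ := h1' 0 1 rfl
        have hc : c = 0 := Fin.ext (by
          have := d.isLt
          have := c.isLt
          omega)
        have hd : d = 1 := Fin.ext (by
          have := d.isLt
          have := c.isLt
          omega)
        rw [hc, hd] at h5
        have h6 : ind e {(0 : Fin 2), 1} = ind e {a} + ind e {k} := by
          rw [ind_pair e hak]
          congr 1
          ext i
          simp only [Finset.mem_insert, Finset.mem_singleton]
          constructor
          · intro _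
            exact hall i
          · intro _
            have h2 : ∀ i : Fin 2, i = 0 ∨ i = 1 := by decide
            exact h2 i
        rw [h6] at h5
        exact h5
      have h2k : ind e {k} + ind e {k} = 0 := by
        have h5 : T (ind e {a}) = -t := eq_neg_of_add_eq_zero_left hTa
        have h6 : T (ind e {k}) = ind e {a} - t := eq_sub_of_add_eq hTk
        rw [map_add, h5, h6, h3] at hsum
        have h7 : ind e {a} + ind e {k} + ind e {k} - ind e {a} = 0 := by
          rw [← hsum]
          abel
        rw [← h7]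
        abel
      have h2a : ind e {a} + ind e {a} = 0 := by
        have h6 : T (ind e {k}) = ind e {a} - t := eq_sub_of_add_eq hTk
        have h7 : T (ind e {k} + ind e {k}) = 0 := by rw [h2k, map_zero]
        rw [map_add, h6, h3] at h7
        have h8 : ind e {a} + ind e {a} = ind e {k} + ind e {k} := by
          have h9 : ind e {a} + ind e {a} - (ind e {k} + ind e {k}) = 0 := by
            rw [← h7]
            abel
          exact sub_eq_zero.1 h9
        rw [h8, h2k]
      apply h22
      refine ⟨rfl, fun i => ?_⟩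
      have h9 : ind e {i} + ind e {i} = 0 := by
        rcases hall i with h | h <;> rw [h]
        · exact h2a
        · exact h2k
      have h10 := congrArg (fun z => e z i) h9
      simp only [map_add, Pi.add_apply, ind_apply, map_zero, Pi.zero_apply, Finset.mem_singleton, if_true] at h10
      have h11 : ((2 : ℕ) : ZMod (n i)) = 0 := by
        push_cast
        rw [← h10]
        norm_num
      rw [ZMod.natCast_eq_zero_iff] at h11
      have h12 := Nat.le_of_dvd (by norm_num) h11
      have h13 := hn i
      omega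
    · -- `N = 3`
      subst hN
      have h01 := hpr 0 1 rfl
      have h12 := hpr 1 2 rfl
      have hz1 : T (ind e {1}) + t = 0 := by
        rcases h01 with ⟨h4, -⟩ | ⟨h4, -⟩
        · rcases h12 with ⟨h5, -⟩ | ⟨h5, -⟩
          · exact h5
          · exact absurd (hinj 0 2 (h4.trans h5.symm)) (by decide)
        · exact h4
      have h0a : ∃ a : Fin 3, T (ind e {0}) + t = ind e {a} ∧ a ≠ k ∧ (a.val = k.val + 1 ∨ k.val = a.val + 1) := by
        rcases h01 with ⟨h4, -⟩ | ⟨-, h4⟩
        · exact absurd (hinj 0 1 (h4.trans hz1.symm)) (by decide)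
        · exact h4
      have h2c : ∃ a : Fin 3, T (ind e {2}) + t = ind e {a} ∧ a ≠ k ∧ (a.val = k.val + 1 ∨ k.val = a.val + 1) := by
        rcases h12 with ⟨-, h4⟩ | ⟨h4, -⟩
        · exact h4
        · exact absurd (hinj 2 1 (h4.trans hz1.symm)) (by decide)
      obtain ⟨a, h5, -, h6⟩ := h0a
      obtain ⟨c, h7, -, h8⟩ := h2c
      have hac : a ≠ c := by
        rintro rfl
        exact absurd (hinj 0 2 (h5.trans h7.symm)) (by decide)
      have hk1 : k = 1 := by
        apply Fin.ext
        have h9 : a.val ≠ c.val := fun h => hac (Fin.ext h)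
        have := a.isLt
        have := c.isLt
        have h10 : (1 : Fin 3).val = 1 := rfl
        omega
      rw [hk1] at hsw
      exact hsw hz1
    · -- `N ≥ 4`
      have h4 := hpr ⟨0, by omega⟩ ⟨1, by omega⟩ rfl
      have h5 := hpr ⟨2, by omega⟩ ⟨3, by omega⟩ rfl
      rcases h4 with ⟨h4, -⟩ | ⟨h4, -⟩ <;> rcases h5 with ⟨h5, -⟩ | ⟨h5, -⟩ <;>
        · have := congrArg Fin.val (hinj _ _ (h4.trans h5.symm))
          simp at this
  subst ht
  refine ⟨rfl, eq_id_of_fix e hn T ?_⟩
  have h0'' : ∀ i, ∃ j, T (ind e {i}) = ind e {j} := by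
    intro i
    rcases h0' i with h | ⟨j, h⟩
    · exfalso
      have h5 : T (ind e {i}) = T 0 := by
        rw [map_zero]
        simpa using h
      exact b_ne e hn (hT h5)
    · exact ⟨j, by simpa using h⟩
  choose σ hσ using h0''
  have hσi : Function.Injective σ := by
    intro i j hij
    exact b_inj e hn (hT (by rw [hσ, hσ, hij]))
  have hadj : ∀ i j : Fin N, j.val = i.val + 1 → ((σ j).val = (σ i).val + 1 ∨ (σ i).val = (σ j).val + 1) := by
    intro i j hij
    have hne : i ≠ j := by
      rintro rfl
      omega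
    obtain ⟨c, d, hcd, h5⟩ := h1' i j hij
    have hne' : σ i ≠ σ j := fun h => hne (hσi h)
    rw [← ind_pair e hne, map_add, hσ, hσ, add_zero, ind_pair e hne'] at h5
    have h6 := ind_inj e hn h5
    have hi6 : σ i ∈ ({c, d} : Finset (Fin N)) := by rw [← h6]; simp
    have hj6 : σ j ∈ ({c, d} : Finset (Fin N)) := by rw [← h6]; simp
    simp only [Finset.mem_insert, Finset.mem_singleton] at hi6 hj6
    rcases hi6 with h7 | h7 <;> rcases hj6 with h8 | h8
    · exact absurd (h7.trans h8.symm) hne'
    · left; rw [h7, h8]; exact hcd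
    · right; rw [h7, h8]; exact hcd
    · exact absurd (h7.trans h8.symm) hne'
  intro i
  rcases path_aut σ hσi hadj with h | h
  · rw [hσ, Fin.ext (h i)]
  · have h5 : σ (σ i) = i := Fin.ext (by
      have h6 := h i
      have h7 := h (σ i)
      omega)
    have h6 : (fun x => T x + 0) (ind e {i}) = ind e {σ i} := by simp [hσ]
    have h7 : (fun x => T x + 0) (ind e {σ i}) = ind e {i} := by simp [hσ, h5]
    rw [hσ]
    exact swapless hm hm' h6 h7

/-! ### primitive solvable groups -/

/-- the affine structure of a faithful primitive solvable permutation group (from `H578.PermCol.prim_faithful`) -/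
theorem exists_aff_faithful {S : Type u} {Ω : Type w} [Group S] [Finite S] [Group.IsSolvable S]
    [MulAction S Ω] [FaithfulSMul S Ω] (hprim : IsPreprimitive S Ω) (hS : Nontrivial S) (ω0 : Ω) :
    ∃ (X : Type u) (_ : AddCommGroup X) (_ : Finite X) (f : Ω ≃ X), ∀ g : S, ∃ (T : X →+ X) (t : X),
      Function.Injective T ∧ ∀ ω, f (g • ω) = T (f ω) + t := by
  classical
  -- a minimal normal subgroup
  obtain ⟨M, ⟨hMn, hM⟩, hmin⟩ := Set.Finite.exists_minimal
    (s := {M : Subgroup S | M.Normal ∧ M ≠ ⊥}) (Set.toFinite _) ⟨⊤, inferInstance, top_ne_bot⟩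
  have hmin' : ∀ K : Subgroup S, K.Normal → K ≤ M → K = ⊥ ∨ K = M := by
    intro K hK hKM
    by_cases h : K = ⊥
    · exact Or.inl h
    · exact Or.inr (le_antisymm hKM (hmin ⟨hK, h⟩ hKM))
  have htrans := isPretransitive_of_normal hprim M hM
  have hcomm := comm_of_minimal_normal M hM hmin'
  have hstab := stabilizer_eq_bot_of_comm (Ω := Ω) M hcomm ω0
  let _ : CommGroup M :=
    { (inferInstance : Group M) with
      mul_comm := fun a b => Subtype.ext (hcomm a a.2 b b.2) }
  -- the bijection `M → Ω`
  have hinj : ∀ a b : M, a • ω0 = b • ω0 → a = b := by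
    intro a b hab
    have : b⁻¹ * a ∈ stabilizer M ω0 := by
      rw [mem_stabilizer_iff, mul_smul, hab, inv_smul_smul]
    rw [hstab, Subgroup.mem_bot] at this
    exact (inv_mul_eq_one.mp this).symm
  choose f hf using fun ω : Ω => MulAction.exists_smul_eq M ω0 ω
  have hff : ∀ m : M, f (m • ω0) = m := fun m => hinj _ _ (hf (m • ω0))
  let F : Ω ≃ Additive M :=
    { toFun := fun ω => Additive.ofMul (f ω)
      invFun := fun x => (Additive.toMul x : M) • ω0
      left_inv := fun ω => hf ω
      right_inv := fun x => by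
        change Additive.ofMul (f ((Additive.toMul x : M) • ω0)) = x
        rw [hff]
        rfl }
  refine ⟨Additive M, inferInstance, inferInstance, F, fun g => ?_⟩
  let t : M := f (g • ω0)
  have ht : (t : S) • ω0 = g • ω0 := hf (g • ω0)
  let T : M →* M := (MulAut.conjNormal g : M ≃* M).toMonoidHom
  have hT : ∀ m : M, ((T m : M) : S) = g * m * g⁻¹ := fun m => MulAut.conjNormal_apply g m
  have hact : ∀ m : M, g • (m • ω0) = (T m * t) • ω0 := by
    intro m
    change g • ((m : S) • ω0) = ((T m * t : M) : S) • ω0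
    rw [Subgroup.coe_mul, mul_smul, ht, hT, ← mul_smul, ← mul_smul, inv_mul_cancel_right]
  refine ⟨MonoidHom.toAdditive T, Additive.ofMul t, ?_, ?_⟩
  · intro a b hab
    exact (MulAut.conjNormal g : M ≃* M).injective hab
  · intro ω
    have h1 : f (g • ω) = T (f ω) * t := by
      conv_lhs => rw [← hf ω, hact]
      exact hff _
    exact h1

/-- **a primitive solvable permutation group is a group of affine maps** of an abelian group -/
theorem exists_aff {G : Type u} {Ω : Type w} [Group G] [Finite G] [Group.IsSolvable G]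
    [MulAction G Ω] [Nontrivial Ω] (hprim : IsPreprimitive G Ω) :
    ∃ (X : Type u) (_ : AddCommGroup X) (_ : Finite X) (f : Ω ≃ X), ∀ g : G, ∃ (T : X →+ X) (t : X),
      Function.Injective T ∧ ∀ ω, f (g • ω) = T (f ω) + t := by
  classical
  obtain ⟨ω0, ω1, hne⟩ := exists_pair_ne Ω
  -- the faithful quotient
  let N : Subgroup G := (toPermHom G Ω).ker
  have hN : ∀ g, g ∈ N ↔ ∀ ω : Ω, g • ω = ω := by
    intro g
    rw [MonoidHom.mem_ker, Equiv.Perm.ext_iff]
    rfl
  let act : MulAction (G ⧸ N) Ω :=
    { smul := fun s ω => QuotientGroup.lift N (toPermHom G Ω) (fun g hg => hg) s ω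
      one_smul := fun ω => by
        change QuotientGroup.lift N (toPermHom G Ω) _ 1 ω = ω
        rw [map_one]; rfl
      mul_smul := fun a b ω => by
        change QuotientGroup.lift N (toPermHom G Ω) _ (a * b) ω = _
        rw [map_mul]; rfl }
  have hsm : ∀ (g : G) (ω : Ω), ((g : G ⧸ N)) • ω = g • ω := fun g ω => rfl
  have hfaith : FaithfulSMul (G ⧸ N) Ω := by
    refine ⟨fun {a b} hab => ?_⟩
    obtain ⟨a, rfl⟩ := QuotientGroup.mk_surjective a
    obtain ⟨b, rfl⟩ := QuotientGroup.mk_surjective b
    rw [QuotientGroup.eq, hN]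
    intro ω
    have h1 := hab ω
    rw [hsm, hsm] at h1
    rw [mul_smul, ← h1, inv_smul_smul]
  have hprim' : IsPreprimitive (G ⧸ N) Ω := by
    let f : Ω →ₑ[(QuotientGroup.mk : G → G ⧸ N)] Ω :=
      { toFun := id
        map_smul' := fun g ω => rfl }
    exact IsPreprimitive.of_surjective (f := f) (fun ω => ⟨ω, rfl⟩)
  have hsol : Group.IsSolvable (G ⧸ N) := inferInstance
  have hnt : Nontrivial (G ⧸ N) := by
    obtain ⟨g, hg⟩ := hprim.toIsPretransitive.exists_smul_eq ω0 ω1
    refine ⟨(g : G ⧸ N), 1, fun h => ?_⟩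
    apply hne
    rw [← hg, ← hsm, h, one_smul]
  obtain ⟨X, i1, i2, f, hf⟩ := exists_aff_faithful (S := G ⧸ N) hprim' hnt ω0
  exact ⟨X, i1, i2, f, fun g => hf (g : G ⧸ N)⟩

/-- iterates of an affine map -/
theorem iter_eq {G : Type u} {Ω : Type w} [Group G] [MulAction G Ω] {X : Type u} [AddCommGroup X] (f : Ω ≃ X)
    {g : G} {T : X →+ X} {t : X} (h : ∀ ω, f (g • ω) = T (f ω) + t) {m : ℕ} (hm : g ^ m = 1) (x : X) :
    (fun x => T x + t)^[m] x = x := by
  have h1 : ∀ k (x : X), (fun x => T x + t)^[k] x = f (g ^ k • f.symm x) := by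
    intro k
    induction k with
    | zero => intro x; simp
    | succ k ih =>
      intro x
      rw [Function.iterate_succ_apply', ih, pow_succ', mul_smul, h]
  rw [h1, hm, one_smul, Equiv.apply_symm_apply]

/-- if all classes of a colouring with `k` colours have the same size then `k` divides the degree -/
theorem exists_ne {Δ : Type*} [Finite Δ] {k : ℕ} (hk : ¬ k ∣ Nat.card Δ) (κ : Δ → Fin k) :
    ∃ i j, Nat.card {δ // κ δ = i} ≠ Nat.card {δ // κ δ = j} := by
  classical
  by_contra hcon
  push Not at hcon
  apply hk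
  have h1 : Nat.card Δ = ∑ i : Fin k, Nat.card {δ // κ δ = i} := by
    rw [← Nat.card_sigma]
    exact Nat.card_congr (Equiv.sigmaFiberEquiv κ).symm
  rcases Nat.eq_zero_or_pos k with h0 | h0
  · subst h0
    rw [h1]
    simp
  · rw [h1, Finset.sum_congr rfl fun i _ => hcon i ⟨0, h0⟩, Finset.sum_const, Finset.card_univ, Fintype.card_fin,
      smul_eq_mul]
    exact dvd_mul_right _ _

/-- **[COL3]** -/
theorem col_three : Col.{u} 3 3 := by
  intro H Δ _ _ _ _ _ _ hprim hdvd
  obtain ⟨X, _, _, f, hf⟩ := exists_aff (G := H) (Ω := Δ) hprim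
  obtain ⟨κ, hκ⟩ := c3aff X
  refine ⟨fun δ => κ (f δ), ?_, exists_ne hdvd _⟩
  rintro y ⟨k, hk⟩ hy δ
  obtain ⟨T, t, hT, hTt⟩ := hf y
  obtain ⟨h1, h2⟩ := hκ T t hT (by
    intro x
    have h3 : κ (f (y • f.symm x)) = κ (f (f.symm x)) := hy (f.symm x)
    rw [hTt, Equiv.apply_symm_apply] at h3
    exact h3) ⟨3 ^ k, Odd.pow (by decide), iter_eq f hTt hk⟩
  apply f.injective
  rw [hTt, h1, h2, add_zero]

/-- **[COL2]** -/
theorem col_two : Col.{u} 2 4 := by
  intro H Δ _ _ _ _ _ _ hprim hdvd
  obtain ⟨X, _, _, f, hf⟩ := exists_aff (G := H) (Ω := Δ) hprim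
  obtain ⟨κ, hκ⟩ := c4aff X (by
    rw [← Nat.card_congr f, ← Nat.not_even_iff_odd, even_iff_two_dvd]
    exact hdvd)
  refine ⟨fun δ => κ (f δ), ?_, exists_ne (fun h => hdvd (dvd_trans (by decide) h)) _⟩
  intro y _ hy δ
  obtain ⟨T, t, hT, hTt⟩ := hf y
  obtain ⟨h1, h2⟩ := hκ T t hT (by
    intro x
    have h3 : κ (f (y • f.symm x)) = κ (f (f.symm x)) := hy (f.symm x)
    rw [hTt, Equiv.apply_symm_apply] at h3
    exact h3)
  apply f.injective
  rw [hTt, h1, h2, add_zero]

end Cfsg.Agent.H502.RC
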